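import Cfsg.Agent.Lib.Helper75.LW.Defs

/-!
# LW = S0746, the semiregular case: basic facts (i)-(iii)
-/

set_option autoImplicit false
set_option linter.unusedSectionVars false

namespace Cfsg.Agent.Lib.Helper64.LW

open Cfsg.Agent.Lib.Helper75.LW

universe u

variable {α : Type u} [Fintype α] [DecidableEq α]

theorem triv_of_le {G : Subgroup (Equiv.Perm α)} {j : ℕ} (hT : Triv G j) {g : Equiv.Perm α}
    (hg : g ∈ G) (s : Finset α) (hs : j ≤ s.card) (hfix : ∀ a ∈ s, g a = a) : g = 1 := by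
  obtain ⟨s', hs', hc⟩ := Finset.exists_subset_card_eq hs
  exact hT s' hc g hg (fun a ha => hfix a (hs' ha))

theorem noinv_of_le {G : Subgroup (Equiv.Perm α)} {j : ℕ} (hT : NoInv G j) {g : Equiv.Perm α}
    (hg : g ∈ G) (hg2 : g * g = 1) (s : Finset α) (hs : j ≤ s.card)
    (hfix : ∀ a ∈ s, g a = a) : g = 1 := by
  obtain ⟨s', hs', hc⟩ := Finset.exists_subset_card_eq hs
  exact hT s' hc g hg hg2 (fun a ha => hfix a (hs' ha))

section ctx

variable {G : Subgroup (Equiv.Perm α)} {t : ℕ} {Λ₀ : Finset α} {x : α}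
  {F : Subgroup (Equiv.Perm α)}

theorem ctx_apply_notMem (hC : Ctx G t Λ₀ x F) {f : Equiv.Perm α} (hf : f ∈ F) : f x ∉ Λ₀ := by
  intro h
  have h1 : f (f x) = f x := hC.Ffix f hf _ h
  have h2 : f x = x := f.injective h1
  exact hC.xn (h2 ▸ h)

theorem ctx_inj (hC : Ctx G t Λ₀ x F) {f f' : Equiv.Perm α} (hf : f ∈ F) (hf' : f' ∈ F)
    (h : f x = f' x) : f = f' := by
  have h1 : (f'⁻¹ * f) x = x := by
    rw [Equiv.Perm.mul_apply, h]
    simp
  have h2 := hC.Ffree _ (F.mul_mem (F.inv_mem hf') hf) h1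
  exact (inv_mul_eq_one.mp h2).symm

/-- (i) `|F| = n - (t - 1)` -/
theorem ctx_card (hC : Ctx G t Λ₀ x F) : Nat.card F + Λ₀.card = Fintype.card α := by
  have hbij : Function.Bijective (fun f : F =>
      (⟨(f : Equiv.Perm α) x, ctx_apply_notMem hC f.2⟩ : {y : α // y ∉ Λ₀})) := by
    constructor
    · intro f f' h
      exact Subtype.ext (ctx_inj hC f.2 f'.2 (congrArg Subtype.val h))
    · rintro ⟨y, hy⟩
      obtain ⟨f, hf, hfx⟩ := hC.Ftr y hy
      exact ⟨⟨f, hf⟩, Subtype.ext hfx⟩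
  have h1 := Nat.card_congr (Equiv.ofBijective _ hbij)
  have h2 : Nat.card {y : α // y ∉ Λ₀} = (Λ₀ᶜ).card := by
    rw [Nat.card_eq_fintype_card, Fintype.card_subtype]
    congr 1
    ext y; simp
  rw [h1, h2, Finset.card_compl]
  have := Finset.card_le_univ Λ₀
  omega

/-- (ii) centralising `f` is the same as fixing `f x` -/
theorem ctx_norm_fix (hC : Ctx G t Λ₀ x F) {b : Equiv.Perm α} (hb : b ∈ G) (hbx : b x = x)
    (hbΛ : ∀ p ∈ Λ₀, b p ∈ Λ₀) {f : Equiv.Perm α} (hf : f ∈ F) :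
    b * f * b⁻¹ = f ↔ b (f x) = f x := by
  have hbix : b⁻¹ x = x := by rw [Equiv.Perm.inv_eq_iff_eq]; exact hbx.symm
  have key : (b * f * b⁻¹) x = b (f x) := by
    rw [Equiv.Perm.mul_apply, Equiv.Perm.mul_apply, hbix]
  constructor
  · intro h
    rw [← key, h]
  · intro h
    exact ctx_inj hC (hC.Fnorm b hb hbΛ f hf) hf (key.trans h)

theorem ctx_cent_card (hC : Ctx G t Λ₀ x F) {b : Equiv.Perm α} (hb : b ∈ G) (hbx : b x = x)
    (hbΛ : ∀ p ∈ Λ₀, b p ∈ Λ₀) :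
    Nat.card {f : F // b * (f : Equiv.Perm α) * b⁻¹ = f} =
      (Finset.univ.filter (fun y => y ∉ Λ₀ ∧ b y = y)).card := by
  have hbij : Function.Bijective (fun f : {f : F // b * (f : Equiv.Perm α) * b⁻¹ = f} =>
      (⟨(f.1 : Equiv.Perm α) x, ctx_apply_notMem hC f.1.2,
        (ctx_norm_fix hC hb hbx hbΛ f.1.2).1 f.2⟩ : {y : α // y ∉ Λ₀ ∧ b y = y})) := by
    constructor
    · intro f f' h
      exact Subtype.ext (Subtype.ext (ctx_inj hC f.1.2 f'.1.2 (congrArg Subtype.val h)))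
    · rintro ⟨y, hy, hby⟩
      obtain ⟨f, hf, hfx⟩ := hC.Ftr y hy
      exact ⟨⟨⟨f, hf⟩, (ctx_norm_fix hC hb hbx hbΛ hf).2 (by rw [hfx]; exact hby)⟩,
        Subtype.ext hfx⟩
  rw [Nat.card_congr (Equiv.ofBijective _ hbij), Nat.card_eq_fintype_card, Fintype.card_subtype]

/-- an involution of `G` fixing `x`, swapping two points of `Λ₀` and fixing the others -/
structure Inv (G : Subgroup (Equiv.Perm α)) (Λ₀ : Finset α) (x q₁ q₂ : α)
    (b : Equiv.Perm α) : Prop where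
  m1 : q₁ ∈ Λ₀
  m2 : q₂ ∈ Λ₀
  ne : q₁ ≠ q₂
  bG : b ∈ G
  b2 : b * b = 1
  b12 : b q₁ = q₂
  b21 : b q₂ = q₁
  bfix : ∀ s ∈ Λ₀, s ≠ q₁ → s ≠ q₂ → b s = s
  bx : b x = x

theorem Inv.of_pair1 {p₁ p₂ p₃ : α} {a a' : Equiv.Perm α} (hP : Pair G Λ₀ x p₁ p₂ p₃ a a') :
    Inv G Λ₀ x p₁ p₂ a :=
  ⟨hP.m1, hP.m2, hP.n12, hP.aG, hP.a2, hP.a12, hP.a21, hP.afix, hP.ax⟩

theorem Inv.of_pair2 {p₁ p₂ p₃ : α} {a a' : Equiv.Perm α} (hP : Pair G Λ₀ x p₁ p₂ p₃ a a') :
    Inv G Λ₀ x p₁ p₃ a' :=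
  ⟨hP.m1, hP.m3, hP.n13, hP.a'G, hP.a'2, hP.a'13, hP.a'31, hP.a'fix, hP.a'x⟩

variable {q₁ q₂ : α} {b : Equiv.Perm α}

theorem Inv.mapsTo (hI : Inv G Λ₀ x q₁ q₂ b) : ∀ p ∈ Λ₀, b p ∈ Λ₀ := by
  intro p hp
  by_cases h1 : p = q₁
  · rw [h1, hI.b12]; exact hI.m2
  by_cases h2 : p = q₂
  · rw [h2, hI.b21]; exact hI.m1
  rw [hI.bfix p hp h1 h2]; exact hp

theorem Inv.ne_one (hI : Inv G Λ₀ x q₁ q₂ b) : b ≠ 1 := by
  intro h
  have h1 := hI.b12
  rw [h, Equiv.Perm.one_apply] at h1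
  exact hI.ne h1

/-- the fixed points of `b` outside `Λ₀ ∪ {x}` -/
def exFix (Λ₀ : Finset α) (x : α) (b : Equiv.Perm α) : Finset α :=
  Finset.univ.filter (fun y => y ∉ Λ₀ ∧ y ≠ x ∧ b y = y)

theorem mem_exFix {y : α} : y ∈ exFix Λ₀ x b ↔ y ∉ Λ₀ ∧ y ≠ x ∧ b y = y := by
  simp only [exFix, Finset.mem_filter, Finset.mem_univ, true_and]

theorem exFix_pos_iff : 0 < (exFix Λ₀ x b).card ↔ ∃ y, y ∉ Λ₀ ∧ y ≠ x ∧ b y = y := by
  rw [Finset.card_pos]
  constructor
  · rintro ⟨y, hy⟩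
    exact ⟨y, mem_exFix.1 hy⟩
  · rintro ⟨y, hy⟩
    exact ⟨y, mem_exFix.2 hy⟩

/-- (iii) at most one extra fixed point -/
theorem Inv.exFix_card_le_one (hC : Ctx G t Λ₀ x F) (hI : Inv G Λ₀ x q₁ q₂ b) :
    (exFix Λ₀ x b).card ≤ 1 := by
  by_contra hcon
  push Not at hcon
  obtain ⟨y, hy, y', hy', hne⟩ := Finset.one_lt_card.mp hcon
  rw [mem_exFix] at hy hy'
  have hb1 : b = 1 := by
    refine noinv_of_le hC.noinv hI.bG hI.b2
      (insert x (insert y (insert y' ((Λ₀.erase q₁).erase q₂)))) ?_ ?_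
    · have e1 : y' ∉ (Λ₀.erase q₁).erase q₂ := fun h =>
        hy'.1 (Finset.mem_of_mem_erase (Finset.mem_of_mem_erase h))
      have e2 : y ∉ insert y' ((Λ₀.erase q₁).erase q₂) := by
        intro h
        rcases Finset.mem_insert.1 h with h | h
        · exact hne h
        · exact hy.1 (Finset.mem_of_mem_erase (Finset.mem_of_mem_erase h))
      have e3 : x ∉ insert y (insert y' ((Λ₀.erase q₁).erase q₂)) := by
        intro h
        rcases Finset.mem_insert.1 h with h | h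
        · exact hy.2.1 h.symm
        rcases Finset.mem_insert.1 h with h | h
        · exact hy'.2.1 h.symm
        · exact hC.xn (Finset.mem_of_mem_erase (Finset.mem_of_mem_erase h))
      rw [Finset.card_insert_of_notMem e3, Finset.card_insert_of_notMem e2,
        Finset.card_insert_of_notMem e1,
        Finset.card_erase_of_mem (Finset.mem_erase.mpr ⟨hI.ne.symm, hI.m2⟩),
        Finset.card_erase_of_mem hI.m1]
      have := hC.card; have := hC.t4; omega
    · intro z hz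
      simp only [Finset.mem_insert, Finset.mem_erase] at hz
      rcases hz with rfl | rfl | rfl | ⟨h2, h1, hz⟩
      · exact hI.bx
      · exact hy.2.2
      · exact hy'.2.2
      · exact hI.bfix z hz h1 h2
  exact hI.ne_one hb1

theorem Inv.fix_card (hC : Ctx G t Λ₀ x F) (hI : Inv G Λ₀ x q₁ q₂ b) :
    (Finset.univ.filter (fun y => b y = y)).card + 2 = Λ₀.card + 1 + (exFix Λ₀ x b).card := by
  have h1 := Finset.card_filter_add_card_filter_not
    (s := Finset.univ.filter (fun y => b y = y)) (fun y => y ∈ Λ₀)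
  have h2 : (Finset.univ.filter (fun y => b y = y)).filter (fun y => y ∈ Λ₀)
      = (Λ₀.erase q₁).erase q₂ := by
    ext y
    simp only [Finset.mem_filter, Finset.mem_univ, true_and, Finset.mem_erase]
    constructor
    · rintro ⟨hby, hy⟩
      refine ⟨?_, ?_, hy⟩
      · rintro rfl; rw [hI.b21] at hby; exact hI.ne hby
      · rintro rfl; rw [hI.b12] at hby; exact hI.ne hby.symm
    · rintro ⟨h2, h1, hy⟩
      exact ⟨hI.bfix y hy h1 h2, hy⟩
  have h3 : (Finset.univ.filter (fun y => b y = y)).filter (fun y => ¬ y ∈ Λ₀)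
      = insert x (exFix Λ₀ x b) := by
    ext y
    simp only [exFix, Finset.mem_filter, Finset.mem_univ, true_and, Finset.mem_insert]
    constructor
    · rintro ⟨hby, hy⟩
      by_cases hyx : y = x
      · exact Or.inl hyx
      · exact Or.inr ⟨hy, hyx, hby⟩
    · rintro (rfl | ⟨hy, _, hby⟩)
      · exact ⟨hI.bx, hC.xn⟩
      · exact ⟨hby, hy⟩
  have h4 : x ∉ exFix Λ₀ x b := fun h => (mem_exFix.1 h).2.1 rfl
  rw [h2, h3, Finset.card_insert_of_notMem h4,
    Finset.card_erase_of_mem (Finset.mem_erase.mpr ⟨hI.ne.symm, hI.m2⟩),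
    Finset.card_erase_of_mem hI.m1] at h1
  have := hC.card; have := hC.t4
  omega

theorem Inv.parity (hC : Ctx G t Λ₀ x F) (hI : Inv G Λ₀ x q₁ q₂ b) :
    2 ∣ Fintype.card α + t + (exFix Λ₀ x b).card := by
  have h1 := hI.fix_card hC
  have h2 : 2 ∣ b.support.card :=
    Equiv.Perm.two_dvd_card_support (by rw [pow_two]; exact hI.b2)
  have h3 : (Finset.univ.filter (fun y => b y = y)).card + b.support.card = Fintype.card α := by
    have h := Finset.card_filter_add_card_filter_not (s := (Finset.univ : Finset α))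
      (fun y => b y = y)
    have e : Finset.univ.filter (fun y => ¬ b y = y) = b.support := by
      ext y; simp [Equiv.Perm.mem_support]
    rw [e] at h
    rw [h]; rfl
  have := hC.card
  omega

theorem Inv.cent_card (hC : Ctx G t Λ₀ x F) (hI : Inv G Λ₀ x q₁ q₂ b) :
    Nat.card {f : F // b * (f : Equiv.Perm α) * b⁻¹ = f} = (exFix Λ₀ x b).card + 1 := by
  rw [ctx_cent_card hC hI.bG hI.bx hI.mapsTo]
  have e : Finset.univ.filter (fun y => y ∉ Λ₀ ∧ b y = y) = insert x (exFix Λ₀ x b) := by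
    ext y
    simp only [exFix, Finset.mem_filter, Finset.mem_univ, true_and, Finset.mem_insert]
    constructor
    · rintro ⟨hy, hby⟩
      by_cases hyx : y = x
      · exact Or.inl hyx
      · exact Or.inr ⟨hy, hyx, hby⟩
    · rintro (rfl | ⟨hy, _, hby⟩)
      · exact ⟨hC.xn, hI.bx⟩
      · exact ⟨hy, hby⟩
  have h4 : x ∉ exFix Λ₀ x b := fun h => (mem_exFix.1 h).2.1 rfl
  rw [e, Finset.card_insert_of_notMem h4]

end ctx

end Cfsg.Agent.Lib.Helper64.LW
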