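import Cfsg.Agent.Lib.Helper64.LW.Basic

/-!
# LW = S0746, package [EVEN]
-/

set_option autoImplicit false

namespace Cfsg.Agent.Lib.Helper64.LW

open Cfsg.Agent.Lib.Helper75.LW

universe u

theorem pkgEven (hInv : PkgInvert.{u}) : PkgEven.{u} := by
  intro α _ _ G t Λ₀ x F p₁ p₂ p₃ a a' hC hP hna hna'
  have hI := Inv.of_pair1 hP
  have hI' := Inv.of_pair2 hP
  have haF : ∀ f ∈ F, a * f * a⁻¹ ∈ F := hC.Fnorm a hP.aG hI.mapsTo
  have ha'F : ∀ f ∈ F, a' * f * a'⁻¹ ∈ F := hC.Fnorm a' hP.a'G hI'.mapsTo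
  have hca : ∀ f ∈ F, a * f * a⁻¹ = f → f = 1 := by
    intro f hf h
    have h1 := (ctx_norm_fix hC hP.aG hP.ax hI.mapsTo hf).1 h
    by_contra hne
    exact hna (f x) (ctx_apply_notMem hC hf) (fun h' => hne (hC.Ffree f hf h')) h1
  have hca' : ∀ f ∈ F, a' * f * a'⁻¹ = f → f = 1 := by
    intro f hf h
    have h1 := (ctx_norm_fix hC hP.a'G hP.a'x hI'.mapsTo hf).1 h
    by_contra hne
    exact hna' (f x) (ctx_apply_notMem hC hf) (fun h' => hne (hC.Ffree f hf h')) h1
  have hia := hInv F a hP.a2 haF hca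
  have hia' := hInv F a' hP.a'2 ha'F hca'
  -- `d := a * a'` centralises `F`
  have hd : ∀ f ∈ F, (a * a') * f = f * (a * a') := by
    intro f hf
    have h1 := hia' f hf
    have h2 := hia f⁻¹ (F.inv_mem hf)
    rw [inv_inv] at h2
    have h3 : a' * f = f⁻¹ * a' := mul_inv_eq_iff_eq_mul.mp h1
    have h4 : a * f⁻¹ = f * a := mul_inv_eq_iff_eq_mul.mp h2
    calc a * a' * f = a * (a' * f) := by group
      _ = a * (f⁻¹ * a') := by rw [h3]
      _ = (a * f⁻¹) * a' := by group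
      _ = f * a * a' := by rw [h4]
      _ = f * (a * a') := by group
  have hdx : (a * a') x = x := by
    rw [Equiv.Perm.mul_apply, hP.a'x, hP.ax]
  have hdG : a * a' ∈ G := G.mul_mem hP.aG hP.a'G
  have hd1 : a * a' = 1 := by
    refine triv_of_le hC.triv hdG (((Finset.univ.erase p₁).erase p₂).erase p₃) ?_ ?_
    · rw [Finset.card_erase_of_mem, Finset.card_erase_of_mem, Finset.card_erase_of_mem,
        Finset.card_univ]
      · have := hC.n4; omega
      · exact Finset.mem_univ _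
      · exact Finset.mem_erase.mpr ⟨hP.n12.symm, Finset.mem_univ _⟩
      · exact Finset.mem_erase.mpr ⟨hP.n23.symm,
          Finset.mem_erase.mpr ⟨hP.n13.symm, Finset.mem_univ _⟩⟩
    · intro y hy
      simp only [Finset.mem_erase, Finset.mem_univ, and_true] at hy
      obtain ⟨h3, h2, h1⟩ := hy
      by_cases hyΛ : y ∈ Λ₀
      · rw [Equiv.Perm.mul_apply, hP.a'fix y hyΛ h1 h3, hP.afix y hyΛ h1 h2]
      · obtain ⟨f, hf, hfx⟩ := hC.Ftr y hyΛ
        rw [← hfx]
        have h5 : ((a * a') * f) x = (f * (a * a')) x := by rw [hd f hf]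
        rw [Equiv.Perm.mul_apply, Equiv.Perm.mul_apply f, hdx] at h5
        exact h5
  have h6 : (a * a') p₃ = p₂ := by
    rw [Equiv.Perm.mul_apply, hP.a'31, hP.a12]
  rw [hd1, Equiv.Perm.one_apply] at h6
  exact hP.n23 h6.symm

end Cfsg.Agent.Lib.Helper64.LW
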