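import Cfsg.Agent.Lib.Helper64.LW.Basic

/-!
# LW = S0746, package [ODD]
-/

set_option autoImplicit false

namespace Cfsg.Agent.Lib.Helper64.LW

open Cfsg.Agent.Lib.Helper75.LW

universe u

theorem pkgOdd (hA1a : PkgAbs1a.{u}) (hA1b : PkgAbs1b.{u}) (hA2 : PkgAbs2.{u})
    (hA3 : PkgAbs3.{u}) (hFree : PkgFree.{u}) : PkgOdd.{u} := by
  intro α _ _ G t Λ₀ x F p₁ p₂ p₃ a a' hC hP hya hya'
  have hI := Inv.of_pair1 hP
  have hI' := Inv.of_pair2 hP
  have haF : ∀ f ∈ F, a * f * a⁻¹ ∈ F := hC.Fnorm a hP.aG hI.mapsTo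
  have ha'F : ∀ f ∈ F, a' * f * a'⁻¹ ∈ F := hC.Fnorm a' hP.a'G hI'.mapsTo
  -- cards of the centralisers of `a`, `a'`
  have hca : Nat.card {f : F // a * (f : Equiv.Perm α) * a⁻¹ = f} = 2 := by
    rw [hI.cent_card hC]
    have h1 := hI.exFix_card_le_one hC
    have h2 := exFix_pos_iff.2 hya
    omega
  have hca' : Nat.card {f : F // a' * (f : Equiv.Perm α) * a'⁻¹ = f} = 2 := by
    rw [hI'.cent_card hC]
    have h1 := hI'.exFix_card_le_one hC
    have h2 := exFix_pos_iff.2 hya'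
    omega
  -- the stabiliser `K`
  have hcardins : (insert x Λ₀).card = t := by
    rw [Finset.card_insert_of_notMem hC.xn]; exact hC.card
  have hKmem : ∀ κ, κ ∈ PS G (insert x Λ₀) ↔ κ ∈ G ∧ κ x = x ∧ ∀ p ∈ Λ₀, κ p = p := by
    intro κ
    rw [mem_PS]
    constructor
    · rintro ⟨h1, h2⟩
      exact ⟨h1, h2 x (Finset.mem_insert_self _ _),
        fun p hp => h2 p (Finset.mem_insert_of_mem hp)⟩
    · rintro ⟨h1, h2, h3⟩
      refine ⟨h1, fun p hp => ?_⟩
      rcases Finset.mem_insert.1 hp with rfl | hp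
      · exact h2
      · exact h3 p hp
  have hKne : PS G (insert x Λ₀) ≠ ⊥ := by
    obtain ⟨g, hg, hg1, hgΛ, hgx⟩ := hC.nontriv
    intro h
    have h1 : g ∈ PS G (insert x Λ₀) := (hKmem g).2 ⟨hg, hgx, hgΛ⟩
    rw [h, Subgroup.mem_bot] at h1
    exact hg1 h1
  have hKodd : Odd (Nat.card (PS G (insert x Λ₀))) := by
    by_contra hcon
    rw [Nat.not_odd_iff_even] at hcon
    have h2 : 2 ∣ Nat.card (PS G (insert x Λ₀)) := hcon.two_dvd
    obtain ⟨κ, hκ⟩ := exists_prime_orderOf_dvd_card' 2 h2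
    have hκ2 : (κ : Equiv.Perm α) * κ = 1 := by
      have h3 := pow_orderOf_eq_one κ
      rw [hκ, pow_two] at h3
      exact congrArg Subtype.val h3
    have hκK := (hKmem κ).1 κ.2
    have hκ1 : (κ : Equiv.Perm α) = 1 := hC.noinv (insert x Λ₀) hcardins κ hκK.1 hκ2 (by
      intro p hp
      rcases Finset.mem_insert.1 hp with rfl | hp
      · exact hκK.2.1
      · exact hκK.2.2 p hp)
    have h4 : κ = 1 := Subtype.ext hκ1
    rw [h4, orderOf_one] at hκ
    omega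
  have hKF : ∀ κ ∈ PS G (insert x Λ₀), ∀ f ∈ F, κ * f * κ⁻¹ ∈ F := by
    intro κ hκ
    have hκK := (hKmem κ).1 hκ
    exact hC.Fnorm κ hκK.1 (fun p hp => by rw [hκK.2.2 p hp]; exact hp)
  have hKfpf : ∀ κ ∈ PS G (insert x Λ₀), κ ≠ 1 → ∀ f ∈ F, κ * f * κ⁻¹ = f → f = 1 := by
    intro κ hκ hκ1 f hf h
    have hκK := (hKmem κ).1 hκ
    have h1 := (ctx_norm_fix hC hκK.1 hκK.2.1
      (fun p hp => by rw [hκK.2.2 p hp]; exact hp) hf).1 h
    by_contra hne
    have hfx : f x ≠ x := fun h' => hne (hC.Ffree f hf h')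
    have hfΛ : f x ∉ Λ₀ := ctx_apply_notMem hC hf
    apply hκ1
    refine hC.triv (insert (f x) (insert x Λ₀)) ?_ κ hκK.1 ?_
    · rw [Finset.card_insert_of_notMem, hcardins]
      intro h'
      rcases Finset.mem_insert.1 h' with h' | h'
      · exact hfx h'
      · exact hfΛ h'
    · intro p hp
      rcases Finset.mem_insert.1 hp with rfl | hp
      · exact h1
      rcases Finset.mem_insert.1 hp with rfl | hp
      · exact hκK.2.1
      · exact hκK.2.2 p hp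
  obtain ⟨hK3, P, hPF, hP4, h8, hPel, hPinv, hPnorm⟩ :=
    hA1a F (PS G (insert x Λ₀)) a hC.Fnil hKodd hKne hKF hKfpf hP.a2 haF hca
  have haP : ∀ e ∈ P, a * e * a⁻¹ ∈ P := hPnorm a haF
  have ha'P : ∀ e ∈ P, a' * e * a'⁻¹ ∈ P := hPnorm a' ha'F
  have hb := hA1b F P a hPF hP4 hPel hPinv hP.a2 haF haP hca
  have hb' := hA1b F P a' hPF hP4 hPel hPinv hP.a'2 ha'F ha'P hca'
  have hPnormal : ∀ f ∈ F, ∀ e ∈ P, f * e * f⁻¹ ∈ P := fun f hf =>
    hPnorm f (fun f' hf' => F.mul_mem (F.mul_mem hf hf') (F.inv_mem hf))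
  have hdP := hA2 F P a a' hPF hPnormal hP.a2 hP.a'2 haF ha'F haP ha'P hb hb'
  -- the element `d := a * a'`
  have hdG : a * a' ∈ G := G.mul_mem hP.aG hP.a'G
  have hdx : (a * a') x = x := by rw [Equiv.Perm.mul_apply, hP.a'x, hP.ax]
  have hd1 : (a * a') p₁ = p₃ := by
    rw [Equiv.Perm.mul_apply, hP.a'13, hP.afix p₃ hP.m3 hP.n13.symm hP.n23.symm]
  have hd3 : (a * a') p₃ = p₂ := by rw [Equiv.Perm.mul_apply, hP.a'31, hP.a12]
  have hd2 : (a * a') p₂ = p₁ := by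
    rw [Equiv.Perm.mul_apply, hP.a'fix p₂ hP.m2 hP.n12.symm hP.n23, hP.a21]
  have hdfix : ∀ p ∈ Λ₀, p ≠ p₁ → p ≠ p₂ → p ≠ p₃ → (a * a') p = p := by
    intro p hp h1 h2 h3
    rw [Equiv.Perm.mul_apply, hP.a'fix p hp h1 h3, hP.afix p hp h1 h2]
  have hdΛ : ∀ p ∈ Λ₀, (a * a') p ∈ Λ₀ := by
    intro p hp
    rw [Equiv.Perm.mul_apply]
    exact hI.mapsTo _ (hI'.mapsTo p hp)
  have hdF : ∀ f ∈ F, (a * a') * f * (a * a')⁻¹ ∈ F := hC.Fnorm (a * a') hdG hdΛ
  have hdPn : ∀ e ∈ P, (a * a') * e * (a * a')⁻¹ ∈ P := hPnorm (a * a') hdF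
  -- `d ^ 9 = 1`
  have hpow3 : ∀ y : α, ((a * a') ^ 3) y = (a * a') ((a * a') ((a * a') y)) := by
    intro y
    rw [pow_succ, pow_succ, pow_one, Equiv.Perm.mul_apply, Equiv.Perm.mul_apply]
  have hd3K : (a * a') ^ 3 ∈ PS G (insert x Λ₀) := by
    rw [hKmem]
    refine ⟨G.pow_mem hdG 3, ?_, ?_⟩
    · rw [hpow3, hdx, hdx, hdx]
    · intro p hp
      rw [hpow3]
      by_cases h1 : p = p₁
      · rw [h1, hd1, hd3, hd2]
      by_cases h2 : p = p₂
      · rw [h2, hd2, hd1, hd3]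
      by_cases h3 : p = p₃
      · rw [h3, hd3, hd2, hd1]
      · have h4 := hdfix p hp h1 h2 h3
        rw [h4, h4, h4]
  have hd9 : (a * a') ^ 9 = 1 := by
    have h1 : (⟨(a * a') ^ 3, hd3K⟩ : PS G (insert x Λ₀)) ^ Nat.card (PS G (insert x Λ₀)) = 1 :=
      pow_card_eq_one'
    rw [hK3] at h1
    have h2 : ((a * a') ^ 3) ^ 3 = 1 := congrArg Subtype.val h1
    rw [← pow_mul] at h2
    exact h2
  have h3 := hA3 F P (a * a') hPF hP4 hd9 hdF hdPn hdP
  -- `|C_F(d)| ≤ 4`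
  have hcd : Nat.card {f : F // (a * a') * (f : Equiv.Perm α) * (a * a')⁻¹ = f} ≤ 4 := by
    rw [ctx_cent_card hC hdG hdx hdΛ]
    by_contra hcon
    push Not at hcon
    have hd1' : a * a' = 1 := by
      refine triv_of_le hC.triv hdG
        (Finset.univ.filter (fun y => y ∉ Λ₀ ∧ (a * a') y = y) ∪
          ((Λ₀.erase p₁).erase p₂).erase p₃) ?_ ?_
      · rw [Finset.card_union_of_disjoint, Finset.card_erase_of_mem,
          Finset.card_erase_of_mem, Finset.card_erase_of_mem hP.m1]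
        · have := hC.card; have := hC.t4; omega
        · exact Finset.mem_erase.mpr ⟨hP.n12.symm, hP.m2⟩
        · exact Finset.mem_erase.mpr ⟨hP.n23.symm,
            Finset.mem_erase.mpr ⟨hP.n13.symm, hP.m3⟩⟩
        · rw [Finset.disjoint_left]
          intro y hy hy'
          simp only [Finset.mem_filter, Finset.mem_univ, true_and] at hy
          exact hy.1 (Finset.mem_of_mem_erase (Finset.mem_of_mem_erase
            (Finset.mem_of_mem_erase hy')))
      · intro y hy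
        rcases Finset.mem_union.1 hy with hy | hy
        · simp only [Finset.mem_filter, Finset.mem_univ, true_and] at hy
          exact hy.2
        · simp only [Finset.mem_erase] at hy
          exact hdfix y hy.2.2.2 hy.2.2.1 hy.2.1 hy.1
    rw [hd1', Equiv.Perm.one_apply] at hd3
    exact hP.n23 hd3.symm
  have h4F : 4 ∣ Nat.card F := by
    rw [← hP4]; exact Subgroup.card_dvd_of_le hPF
  have hfree := hFree G (insert x Λ₀) (by rw [hcardins]; exact hC.triv)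
  rw [hcardins, hK3] at hfree
  have hcF := ctx_card hC
  have := hC.card
  have := hC.n4
  omega

end Cfsg.Agent.Lib.Helper64.LW
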