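import Cfsg.Agent.Lib.Helper64.LW.Basic

/-!
# LW = S0746, package [PAR]
-/

set_option autoImplicit false

namespace Cfsg.Agent.Lib.Helper64.LW

open Cfsg.Agent.Lib.Helper75.LW

universe u

theorem pkgPar : PkgPar.{u} := by
  intro α _ _ G t Λ₀ x F p₁ p₂ p₃ a a' hC hP
  have hI := Inv.of_pair1 hP
  have hI' := Inv.of_pair2 hP
  rw [← exFix_pos_iff, ← exFix_pos_iff]
  have h1 := hI.exFix_card_le_one hC
  have h1' := hI'.exFix_card_le_one hC
  have h2 := hI.parity hC
  have h2' := hI'.parity hC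
  omega

end Cfsg.Agent.Lib.Helper64.LW
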